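import Groth.Agent.Flat2D.CMFlatPoly3
import Groth.Agent.Flat2D.CMCharts
import Groth.Agent.Flat2D.AffVec
import Groth.Agent.Flat2D.FiberStalk
import Groth.Agent.FlatA.FlatStalk
import Groth.Agent.FlatA.FibreDim
import Mathlib.AlgebraicGeometry.Morphisms.QuasiFinite
import Mathlib.AlgebraicGeometry.Morphisms.FinitePresentation

/-!
# Locally quasi-finite morphisms to affine space of the right dimension are flat at Cohen-Macaulay points
-/

set_option autoImplicit false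
universe u

open AlgebraicGeometry CategoryTheory CategoryTheory.Limits IsLocalRing

namespace Groth.Agent.Dual.H373.QFFlat

/-- The stalk maps of a morphism of affine schemes. -/
theorem flat_stalkMap_Spec_iff {A C : CommRingCat.{u}} (φ : A ⟶ C) (q : PrimeSpectrum C) :
    letI := φ.hom.toAlgebra
    ((Spec.map φ).stalkMap q).hom.Flat ↔ Module.Flat A (Localization.AtPrime q.asIdeal) := by
  let := φ.hom.toAlgebra
  let p := (q.comap φ.hom).asIdeal
  have : q.asIdeal.LiesOver p := ⟨rfl⟩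
  let := Localization.AtPrime.algebraOfLiesOver p q.asIdeal
  trans Module.Flat (Localization.AtPrime p) (Localization.AtPrime q.asIdeal)
  · rw [← RingHom.flat_algebraMap_iff]
    exact RingHom.Flat.respectsIso.arrow_mk_iso_iff (Scheme.arrowStalkMapSpecIso φ q)
  · exact Module.flat_iff_of_isLocalization (Localization.AtPrime p) p.primeCompl _

/-- Flatness of the stalk map is insensitive to open immersions. -/
theorem flat_stalkMap_comp_iff {U X Y : Scheme.{u}} (j : U ⟶ X) [IsOpenImmersion j] (g : X ⟶ Y) (u : U) :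
    ((j ≫ g).stalkMap u).hom.Flat ↔ (g.stalkMap (j u)).hom.Flat := by
  rw [Scheme.Hom.stalkMap_comp]
  exact RingHom.Flat.respectsIso.cancel_right_isIso _ _

theorem flat_stalkMap_comp_iff' {U X Y : Scheme.{u}} (j : U ⟶ X) (g : X ⟶ Y) [IsOpenImmersion g] (u : U) :
    ((j ≫ g).stalkMap u).hom.Flat ↔ (j.stalkMap u).hom.Flat := by
  rw [Scheme.Hom.stalkMap_comp]
  exact RingHom.Flat.respectsIso.cancel_left_isIso _ _

/-- A morphism to affine space on affine charts. -/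
theorem exists_chart_mor {X S : Scheme.{u}} (d : ℕ) (g : X ⟶ 𝔸(ULift.{u} (Fin d); S))
    {V : S.Opens} (hV : IsAffineOpen V) {U : X.Opens} (hU : IsAffineOpen U)
    (e : U ≤ (g ≫ (𝔸(ULift.{u} (Fin d); S) ↘ S)) ⁻¹ᵁ V) :
    ∃ (φ : CommRingCat.of (MvPolynomial (Fin d) Γ(S, V)) ⟶ Γ(X, U))
      (j : Spec (.of (MvPolynomial (Fin d) Γ(S, V))) ⟶ 𝔸(ULift.{u} (Fin d); S)), IsOpenImmersion j ∧
      φ.hom.comp MvPolynomial.C = ((g ≫ (𝔸(ULift.{u} (Fin d); S) ↘ S)).appLE V U e).hom ∧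
      hU.fromSpec ≫ g = Spec.map φ ≫ j := by
  set f := g ≫ (𝔸(ULift.{u} (Fin d); S) ↘ S) with hf
  let h : Spec Γ(X, U) ⟶ 𝔸(ULift.{u} (Fin d); S) := hU.fromSpec ≫ g
  let c : ULift.{u} (Fin d) → Γ(X, U) := fun i =>
    (Scheme.ΓSpecIso Γ(X, U)).hom (h.appTop (AffineSpace.coord S i))
  have h1 : h ≫ (𝔸(ULift.{u} (Fin d); S) ↘ S) = Spec.map (f.appLE V U e) ≫ hV.fromSpec := by
    rw [IsAffineOpen.SpecMap_appLE_fromSpec f hV hU e, Category.assoc]
  have h2 : h = AffineSpace.homOfVector (Spec.map (f.appLE V U e) ≫ hV.fromSpec)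
      (fun i => (Scheme.ΓSpecIso Γ(X, U)).inv (c i)) := by
    apply AffineSpace.hom_ext
    · rw [h1, AffineSpace.homOfVector_over]
    · intro i
      rw [AffineSpace.homOfVector_appTop_coord]
      simp [c]
  rw [Flat2D.AffVec.homOfVector_spec] at h2
  let c' : Spec (.of (MvPolynomial (Fin d) Γ(S, V))) ⟶
      Spec (.of (MvPolynomial (ULift.{u} (Fin d)) Γ(S, V))) :=
    Spec.map (CommRingCat.ofHom (MvPolynomial.renameEquiv Γ(S, V) (Equiv.ulift (α := Fin d))).toRingEquiv.toRingHom)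
  have hc : IsIso c' := by
    have : IsIso (CommRingCat.ofHom (MvPolynomial.renameEquiv Γ(S, V)
        (Equiv.ulift (α := Fin d))).toRingEquiv.toRingHom) :=
      (ConcreteCategory.isIso_iff_bijective _).mpr (MvPolynomial.renameEquiv Γ(S, V)
        (Equiv.ulift (α := Fin d))).bijective
    infer_instance
  let Φ : MvPolynomial (ULift.{u} (Fin d)) Γ(S, V) →+* Γ(X, U) :=
    MvPolynomial.eval₂Hom (f.appLE V U e).hom c
  refine ⟨CommRingCat.ofHom
      (Φ.comp (MvPolynomial.renameEquiv Γ(S, V) (Equiv.ulift (α := Fin d))).symm.toRingEquiv.toRingHom),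
    c' ≫ (AffineSpace.SpecIso (ULift.{u} (Fin d)) Γ(S, V)).inv ≫
      AffineSpace.map (ULift.{u} (Fin d)) hV.fromSpec, inferInstance, ?_, ?_⟩
  · rw [CommRingCat.hom_ofHom]
    apply RingHom.ext
    intro r
    change Φ (MvPolynomial.rename _ (MvPolynomial.C r)) = _
    rw [MvPolynomial.rename_C]
    exact MvPolynomial.eval₂_C _ _ _
  · refine h2.trans ?_
    rw [← Category.assoc _ c']
    congr 1
    rw [← Spec.map_comp]
    congr 1
    ext r
    · simp [Φ]
    · simp [Φ]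

/-- Let `f : X ⟶ S` be locally of finite presentation and Cohen-Macaulay at `x`, with local fibre dimension `d`. Then
any locally quasi-finite `S`-morphism from `X` to affine `d`-space is flat at `x`. -/
theorem flat_stalkMap {X S : Scheme.{u}} (d : ℕ) (g : X ⟶ 𝔸(ULift.{u} (Fin d); S))
    [LocallyOfFinitePresentation (g ≫ (𝔸(ULift.{u} (Fin d); S) ↘ S))] [LocallyQuasiFinite g] (x : X)
    (hd : FlatMor.fibreDimAt (g ≫ (𝔸(ULift.{u} (Fin d); S) ↘ S)) x = d)
    (hCM : MoreMor.IsCMAt (g ≫ (𝔸(ULift.{u} (Fin d); S) ↘ S)) x) : (g.stalkMap x).hom.Flat := by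
  obtain ⟨V, hV, hxV, -⟩ := exists_isAffineOpen_mem_and_subset (U := ⊤)
    (x := (g ≫ (𝔸(ULift.{u} (Fin d); S) ↘ S)) x) (by trivial)
  obtain ⟨U, hU, hxU, hUV⟩ := exists_isAffineOpen_mem_and_subset
    (U := (g ≫ (𝔸(ULift.{u} (Fin d); S) ↘ S)) ⁻¹ᵁ V) (x := x) hxV
  have e : U ≤ (g ≫ (𝔸(ULift.{u} (Fin d); S) ↘ S)) ⁻¹ᵁ V := hUV
  obtain ⟨φ, j, hj, hC, hg⟩ := exists_chart_mor d g hV hU e
  set f := g ≫ (𝔸(ULift.{u} (Fin d); S) ↘ S) with hf
  obtain ⟨hfl, hcm⟩ := (Flat2D.FiberStalk.moreMor_isCMAt_iff f x).mp hCM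
  let _ : Algebra Γ(S, V) Γ(X, U) := (f.appLE V U e).hom.toAlgebra
  have hfp : Algebra.FinitePresentation Γ(S, V) Γ(X, U) := f.finitePresentation_appLE hV hU e
  let φ' : MvPolynomial (Fin d) Γ(S, V) →ₐ[Γ(S, V)] Γ(X, U) :=
    { φ.hom with commutes' := fun r => congr($hC r) }
  let q : PrimeSpectrum Γ(X, U) := hU.primeIdealOf ⟨x, hxU⟩
  have h1 := Groth.Agent.FlatA.FibreDim.fibreDimAt_fromSpec f hV hU e q
  have hq : hU.fromSpec q = x := hU.fromSpec_primeIdealOf ⟨x, hxU⟩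
  rw [hq, hd] at h1
  have hfl' : Module.Flat Γ(S, V) (Localization.AtPrime q.asIdeal) :=
    (FlatA.FlatStalk.flat_stalkMap_iff V hV U hU e hxU).mp hfl
  obtain ⟨E⟩ := Flat2D.CMCharts.nonempty_quot_equiv f hV hU e hxU
  have hcm' : LocCoh.IsCohenMacaulayLocalRing (Localization.AtPrime q.asIdeal ⧸
      (q.asIdeal.comap (algebraMap Γ(S, V) Γ(X, U))).map
        (algebraMap Γ(S, V) (Localization.AtPrime q.asIdeal))) :=
    (Flat2D.FiberStalk.isCohenMacaulayLocalRing_iff_of_ringEquiv E).mp hcm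
  have hqf : φ'.toRingHom.QuasiFinite := by
    have h2 : LocallyQuasiFinite (Spec.map φ ≫ j) := by
      rw [← hg]
      infer_instance
    have h3 : LocallyQuasiFinite (Spec.map φ) := .of_comp _ j
    exact (HasRingHomProperty.Spec_iff (P := @LocallyQuasiFinite)).mp h3
  have key : letI := φ'.toRingHom.toAlgebra
      Module.Flat (MvPolynomial (Fin d) Γ(S, V)) (Localization.AtPrime q.asIdeal) := by
    let P : PrimeSpectrum Γ(S, V) := PrimeSpectrum.comap (algebraMap Γ(S, V) Γ(X, U)) q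
    let Q := PrimeSpectrum.preimageHomeomorphFiber Γ(S, V) Γ(X, U) P ⟨q, rfl⟩
    have hQ : Q.asIdeal.comap (Algebra.TensorProduct.includeRight : Γ(X, U) →ₐ[Γ(S, V)]
        P.asIdeal.Fiber Γ(X, U)).toRingHom = q.asIdeal := by
      have h1 := (PrimeSpectrum.preimageEquivFiber Γ(S, V) Γ(X, U) P).symm_apply_apply ⟨q, rfl⟩
      exact congrArg (fun z => z.1.asIdeal) h1
    have hdQ : FlatMor.localDim (PrimeSpectrum (P.asIdeal.Fiber Γ(X, U))) Q = d := by
      rw [h1]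
      exact (VarietyB.DimTop.localDim_eq_of_homeomorph
        (PrimeSpectrum.preimageHomeomorphFiber Γ(S, V) Γ(X, U) P) ⟨q, rfl⟩).symm
    have hlo : q.asIdeal.LiesOver P.asIdeal := ⟨rfl⟩
    exact Flat2D.CMFlatPoly3.flat_of_isCohenMacaulay P.asIdeal φ' hqf q.asIdeal Q.asIdeal hQ hdQ hcm'
  have h4 : ((Spec.map φ).stalkMap q).hom.Flat :=
    (flat_stalkMap_Spec_iff φ q).mpr key
  have h5 : ((hU.fromSpec ≫ g).stalkMap q).hom.Flat := by
    rw [hg]
    exact (flat_stalkMap_comp_iff' (Spec.map φ) j q).mpr h4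
  rw [flat_stalkMap_comp_iff hU.fromSpec g q, hq] at h5
  exact h5

end Groth.Agent.Dual.H373.QFFlat
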