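import Groth.Agent.Dual.H373.GorComp
import Groth.Agent.Dual.H373.QFFlat
import Groth.Agent.S0341
import Groth.Agent.FlatB.QfAffSpace
import Groth.Agent.Flat2D.LfpComp
import Groth.Agent.Flat2D.DimFlat
import Mathlib.AlgebraicGeometry.ZariskisMainTheorem

/-!
# Gorenstein points and quasi-finite morphisms to affine space
-/

set_option autoImplicit false
universe u

open AlgebraicGeometry CategoryTheory CategoryTheory.Limits IsLocalRing LocCoh

namespace Groth.Agent.Dual.H373.Core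

open Groth.Agent.Flat2D.FiberStalk Groth.Agent.Flat2D.CMConverse GorComp QFFlat

theorem localFibreDim_eq {X S : Scheme.{u}} (f : X ⟶ S) (x : X) :
    Dual3.localFibreDim f x = FlatMor.fibreDimAt f x := by
  unfold Dual3.localFibreDim FlatMor.fibreDimAt FlatMor.localDim
  rw [iInf_subtype']
  rfl

theorem fibreDimAt_comp {U X S : Scheme.{u}} (j : U ⟶ X) [IsOpenImmersion j] (f : X ⟶ S) (y : U) :
    FlatMor.fibreDimAt (j ≫ f) y = FlatMor.fibreDimAt f (j y) := by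
  rw [FlatA.FibreDim.fibreDimAt_eq, FlatA.FibreDim.fibreDimAt_eq]
  exact (FlatA.FibreDim.localDim_fibre_eq j.isOpenEmbedding (i := (id : S → S))
    Function.injective_id (f := (f : X → S)) (g := ((j ≫ f : U ⟶ S) : U → S)) (fun _ => rfl) y).symm

theorem isCMAt_of_isGorensteinAt {X S : Scheme.{u}} (f : X ⟶ S) (x : X)
    (h : Dual3.IsGorensteinAt f x) : MoreMor.IsCMAt f x := by
  have := h.2
  exact ⟨h.1, S0341.result _⟩

theorem quasiFiniteAt_iff {X S : Scheme.{u}} (g : X ⟶ S) [LocallyOfFiniteType g] (x : X) :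
    Dual3.QuasiFiniteAt g x ↔ g.QuasiFiniteAt x :=
  Scheme.Hom.quasiFiniteAt_iff_isOpen_singleton_asFiber.symm

/-- If `f` is Gorenstein at `x` with local fibre dimension `d`, any `S`-morphism to affine `d`-space which is
quasi-finite at `x` is Gorenstein at `x`. -/
theorem isGorensteinAt_of_quasiFiniteAt {X S : Scheme.{u}} (d : ℕ) (g : X ⟶ 𝔸(ULift.{u} (Fin d); S))
    [LocallyOfFinitePresentation (g ≫ (𝔸(ULift.{u} (Fin d); S) ↘ S))] (x : X)
    (hd : FlatMor.fibreDimAt (g ≫ (𝔸(ULift.{u} (Fin d); S) ↘ S)) x = d)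
    (hG : Dual3.IsGorensteinAt (g ≫ (𝔸(ULift.{u} (Fin d); S) ↘ S)) x)
    (hq : Dual3.QuasiFiniteAt g x) : Dual3.IsGorensteinAt g x := by
  have hft : LocallyOfFiniteType g := locallyOfFiniteType_of_comp g (𝔸(ULift.{u} (Fin d); S) ↘ S)
  rw [quasiFiniteAt_iff] at hq
  let W : X.Opens := g.quasiFiniteLocus
  let y : W := ⟨x, hq⟩
  have hWy : W.ι y = x := rfl
  have h1 : LocallyQuasiFinite (W.ι ≫ g) := inferInstance
  have h2 : LocallyOfFinitePresentation ((W.ι ≫ g) ≫ (𝔸(ULift.{u} (Fin d); S) ↘ S)) := by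
    rw [Category.assoc]
    infer_instance
  have h3 : FlatMor.fibreDimAt ((W.ι ≫ g) ≫ (𝔸(ULift.{u} (Fin d); S) ↘ S)) y = d := by
    rw [Category.assoc, fibreDimAt_comp, hWy, hd]
  have h4 : Dual3.IsGorensteinAt ((W.ι ≫ g) ≫ (𝔸(ULift.{u} (Fin d); S) ↘ S)) y := by
    rw [Category.assoc, isGorensteinAt_comp_openImmersion, hWy]
    exact hG
  have h5 : ((W.ι ≫ g).stalkMap y).hom.Flat :=
    flat_stalkMap d (W.ι ≫ g) y h3 (isCMAt_of_isGorensteinAt _ _ h4)
  have h6 := isGorensteinAt_of_comp (W.ι ≫ g) (𝔸(ULift.{u} (Fin d); S) ↘ S) y h5 h4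
    (have := isGor_affineSpace (ULift.{u} (Fin d)) S ((W.ι ≫ g) y)
     inferInstance)
  rw [isGorensteinAt_comp_openImmersion, hWy] at h6
  exact h6

/-- Conversely. -/
theorem isGorensteinAt_comp_affineSpace {X S : Scheme.{u}} (n : Type u) [Finite n] (g : X ⟶ 𝔸(n; S))
    [LocallyOfFiniteType (g ≫ (𝔸(n; S) ↘ S))] (x : X)
    (hG : Dual3.IsGorensteinAt g x) : Dual3.IsGorensteinAt (g ≫ (𝔸(n; S) ↘ S)) x := by
  refine isGorensteinAt_comp g _ x hG ?_ (isNoetherianRing_of_locallyOfFiniteType _ x)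
  rw [isGorensteinAt_iff]
  refine ⟨?_, isGor_affineSpace n S (g x)⟩
  have : Flat (𝔸(n; S) ↘ S) := Flat2D.DimFlat.flat_affineSpace n S
  exact Flat.stalkMap _ _

/-- Existence of locally quasi-finite morphisms to affine space. -/
theorem exists_quasiFinite {X S : Scheme.{u}} (f : X ⟶ S) [LocallyOfFiniteType f] (x : X) (d : ℕ)
    (hd : FlatMor.fibreDimAt f x = d) :
    ∃ (U : X.Opens) (_ : x ∈ U) (g : (U : Scheme.{u}) ⟶ 𝔸(ULift.{u} (Fin d); S)),
      g ≫ (𝔸(ULift.{u} (Fin d); S) ↘ S) = U.ι ≫ f ∧ LocallyQuasiFinite g := by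
  obtain ⟨V, U, hV, hU, e, φ, hxU, hφ, hC⟩ := FlatB.QfAffSpace.exists_chart f x d hd
  obtain ⟨g, hg, -, hg2⟩ := Flat2D.CMCharts.exists_hom_affineSpace f hV hU e φ hC
  exact ⟨U, hxU, g, hg, hg2 hφ⟩

end Groth.Agent.Dual.H373.Core
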