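import Groth.Agent.S2217
import Groth.Agent.LoccohA.GorBC
import Mathlib.RingTheory.Localization.Integer
import Mathlib.RingTheory.Localization.Free
import Mathlib.RingTheory.LocalRing.ResidueField.Ideal
import Mathlib.RingTheory.LocalRing.ResidueField.Fiber
import Mathlib.RingTheory.Flat.Localization
import Mathlib.RingTheory.LocalProperties.Projective

/-!
# Openness of the Gorenstein locus of a finite flat algebra near a point with Gorenstein fibre
-/

set_option autoImplicit false
universe u

open TensorProduct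

namespace Groth.Agent.Dual.H373.FrobOpen

open Groth.Agent.Models2 Disc

theorem isFrob_of_det_ne_zero {k C : Type u} [Field k] [CommRing C] [Algebra k C] {ι : Type*}
    [Fintype ι] [DecidableEq ι] (b : Module.Basis ι k C) (l : Omega k C)
    (h : (OmegaFree.gram b l).det ≠ 0) : Frobenius.IsFrob l.toLinearMap := by
  intro x hx
  have h1 : x • l = 0 := by
    apply Omega.toLinearMap_injective
    ext y
    rw [Omega.smul_toLinearMap_apply]
    exact hx y
  exact (smul_eq_zero.mp (OmegaFree.det_smul_eq_zero b l x h1)).resolve_left h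

theorem isFrob_smul {k C : Type u} [Field k] [CommRing C] [Algebra k C] {l : C →ₗ[k] k}
    (hl : Frobenius.IsFrob l) (c : k) (hc : c ≠ 0) : Frobenius.IsFrob (c • l) := by
  intro x hx
  apply hl
  intro y
  have := hx y
  rw [LinearMap.smul_apply, smul_eq_zero] at this
  exact this.resolve_left hc

/-- Clearing denominators in the residue field of a prime. -/
theorem exists_clear {A : Type u} [CommRing A] (p : Ideal A) [p.IsPrime] {ι : Type*} [Finite ι]
    (f : ι → p.ResidueField) : ∃ (c : p.ResidueField) (_ : c ≠ 0) (a : ι → A),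
      ∀ i, algebraMap A p.ResidueField (a i) = c * f i := by
  obtain ⟨s, hs⟩ := IsLocalization.exist_integer_multiples_of_finite (nonZeroDivisors (A ⧸ p)) f
  choose t ht using hs
  choose a ha using fun i => Ideal.Quotient.mk_surjective (t i)
  refine ⟨algebraMap (A ⧸ p) p.ResidueField s, ?_, a, fun i => ?_⟩
  · have := nonZeroDivisors.coe_ne_zero s
    rwa [Ne, map_eq_zero_iff _ (IsFractionRing.injective (A ⧸ p) p.ResidueField)]
  · rw [← Algebra.smul_def, ← ht i, ← ha i]
    rfl

section

variable {A B κ : Type u} [CommRing A] [CommRing B] [Algebra A B] [Field κ] [Algebra A κ]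
  {ι : Type u} [Fintype ι] [DecidableEq ι] (b : Module.Basis ι A B)

include b in
theorem gor_of_det (l : Omega A B) (h : algebraMap A κ (OmegaFree.gram b l).det ≠ 0) :
    LocCoh.IsGorensteinRing (κ ⊗[A] B) := by
  have hAB : Module.Finite A B := Module.Finite.of_basis b
  have hfin' : Module.Finite κ (κ ⊗[A] B) := inferInstance
  have hart : IsArtinianRing (κ ⊗[A] B) := IsArtinianRing.of_finite κ _
  have h1 : Frobenius.IsFrob (OmegaFree.bc κ l).toLinearMap := by
    apply isFrob_of_det_ne_zero (Algebra.TensorProduct.basis κ b)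
    rw [OmegaFree.gram_bc, ← RingHom.mapMatrix_apply, ← RingHom.map_det]
    exact h
  have := h1.injective
  exact Frobenius.isGorensteinRing_of_injective _

theorem exists_det (hclear : ∀ f : ι → κ, ∃ (c : κ) (_ : c ≠ 0) (a : ι → A),
      ∀ i, algebraMap A κ (a i) = c * f i) (hG : LocCoh.IsGorensteinRing (κ ⊗[A] B)) :
    ∃ l : Omega A B, algebraMap A κ (OmegaFree.gram b l).det ≠ 0 := by
  have hAB : Module.Finite A B := Module.Finite.of_basis b
  have hfin : Module.Finite κ (κ ⊗[A] B) := inferInstance
  obtain ⟨l', hl'⟩ := Frobenius.exists_isFrob_of_isGorensteinRing (k := κ)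
    (C := κ ⊗[A] B)
  obtain ⟨c, hc, a, ha⟩ := hclear fun i => l' (1 ⊗ₜ b i)
  let l : Omega A B := ⟨b.constr A a⟩
  have hl : OmegaFree.bc κ l = ⟨c • l'⟩ := by
    apply Omega.toLinearMap_injective
    apply (Algebra.TensorProduct.basis κ b).ext
    intro i
    rw [Algebra.TensorProduct.basis_apply, OmegaFree.bc_tmul, mul_one]
    simp [l, ha]
  have hdet : (OmegaFree.gram (Algebra.TensorProduct.basis κ b)
      (OmegaFree.bc κ l)).det ≠ 0 := by
    apply S2217.isFrob_iff_det_ne_zero
    rw [hl]
    exact isFrob_smul hl' c hc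
  rw [OmegaFree.gram_bc, ← RingHom.mapMatrix_apply, ← RingHom.map_det] at hdet
  exact ⟨l, hdet⟩

end

/-- `κ ⊗_{A1} (A1 ⊗_A B) ≅ κ ⊗_A B`. -/
theorem gor_cancel_iff {A A1 B κ : Type u} [CommRing A] [CommRing A1] [CommRing B] [Algebra A B]
    [Algebra A A1] [Field κ] [Algebra A κ] [Algebra A1 κ] [IsScalarTower A A1 κ] :
    LocCoh.IsGorensteinRing (κ ⊗[A1] (A1 ⊗[A] B)) ↔ LocCoh.IsGorensteinRing (κ ⊗[A] B) := by
  let e : κ ⊗[A1] (A1 ⊗[A] B) ≃ₐ[κ] κ ⊗[A] B := Algebra.TensorProduct.cancelBaseChange A A1 κ κ B
  exact ⟨LoccohA.GorBC.isGorensteinRing_of_ringEquiv e.toRingEquiv,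
    LoccohA.GorBC.isGorensteinRing_of_ringEquiv e.symm.toRingEquiv⟩

/-- Let `B` be a finite flat finitely presented `A`-algebra and `p` a prime with Gorenstein fibre. Then all fibres over
a basic open neighbourhood of `p` are Gorenstein. -/
theorem exists_gor_nhd {A B : Type u} [CommRing A] [CommRing B] [Algebra A B]
    [Module.FinitePresentation A B] [Module.Flat A B] (p : Ideal A) [p.IsPrime]
    (hG : LocCoh.IsGorensteinRing (p.Fiber B)) :
    ∃ a : A, a ∉ p ∧ ∀ (p' : Ideal A) [p'.IsPrime], a ∉ p' →
      LocCoh.IsGorensteinRing (p'.Fiber B) := by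
  have hfree : Module.Free (Localization.AtPrime p) (LocalizedModule p.primeCompl B) :=
    Module.free_of_flat_of_isLocalRing
  obtain ⟨r, hr, hfree1, -⟩ := Module.FinitePresentation.exists_free_localizedModule_powers
    p.primeCompl (LocalizedModule.mkLinearMap p.primeCompl B) (Localization.AtPrime p)
  let A1 := Localization.Away r
  have hfree2 : Module.Free A1 (A1 ⊗[A] B) :=
    Module.Free.of_equiv (LocalizedModule.equivTensorProduct (Submonoid.powers r) B)
  have hfin2 : Module.Finite A1 (A1 ⊗[A] B) := inferInstance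
  let b := Module.Free.chooseBasis A1 (A1 ⊗[A] B)
  classical
  have hu : ∀ (p' : Ideal A) [p'.IsPrime], r ∉ p' → IsUnit (algebraMap A p'.ResidueField r) := by
    intro p' _ h
    rw [isUnit_iff_ne_zero]
    intro h0
    exact h (Ideal.algebraMap_residueField_eq_zero.1 h0)
  let _ : Algebra A1 p.ResidueField := (IsLocalization.Away.lift r (hu p hr)).toAlgebra
  have hT : IsScalarTower A A1 p.ResidueField := .of_algebraMap_eq fun x =>
    (IsLocalization.Away.lift_eq r (hu p hr) x).symm
  obtain ⟨l, hl⟩ := exists_det (κ := p.ResidueField) b (fun f => by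
    obtain ⟨c, hc, a, ha⟩ := exists_clear p f
    refine ⟨c, hc, fun i => algebraMap A A1 (a i), fun i => ?_⟩
    rw [← IsScalarTower.algebraMap_apply, ha i]) (gor_cancel_iff.mpr hG)
  obtain ⟨n, d, hd⟩ := IsLocalization.Away.surj r (OmegaFree.gram b l).det
  refine ⟨r * d, ?_, ?_⟩
  · intro hmem
    rcases Ideal.IsPrime.mem_or_mem ‹_› hmem with h | h
    · exact hr h
    · have h1 := congrArg (algebraMap A1 p.ResidueField) hd
      rw [← IsScalarTower.algebraMap_apply, Ideal.algebraMap_residueField_eq_zero.2 h, map_mul,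
        map_pow, ← IsScalarTower.algebraMap_apply, mul_eq_zero] at h1
      rcases h1 with h1 | h1
      · exact hl h1
      · exact (((hu p hr).pow n).ne_zero) h1
  · intro p' hp' h
    have hr' : r ∉ p' := fun h' => h (p'.mul_mem_right d h')
    have hd' : d ∉ p' := fun h' => h (p'.mul_mem_left r h')
    let _ : Algebra A1 p'.ResidueField := (IsLocalization.Away.lift r (hu p' hr')).toAlgebra
    have hT' : IsScalarTower A A1 p'.ResidueField := .of_algebraMap_eq fun x =>
      (IsLocalization.Away.lift_eq r (hu p' hr') x).symm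
    refine (gor_cancel_iff (A1 := A1)).mp (gor_of_det b l fun h0 => ?_)
    have h1 := congrArg (algebraMap A1 p'.ResidueField) hd
    rw [← IsScalarTower.algebraMap_apply, map_mul, h0, zero_mul] at h1
    exact hd' (Ideal.algebraMap_residueField_eq_zero.1 h1.symm)

end Groth.Agent.Dual.H373.FrobOpen
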