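import Groth.Prelude.Def_Dual3
import Groth.Agent.S0344
import Groth.Agent.S0342
import Groth.Agent.LoccohA.GorBC
import Groth.Agent.Flat2D.CMConverse
import Mathlib.RingTheory.RegularLocalRing.Polynomial

/-!
# Gorenstein points of a composition `X ⟶ P ⟶ S` at the level of stalks; affine space
-/

set_option autoImplicit false
universe u

open AlgebraicGeometry CategoryTheory CategoryTheory.Limits IsLocalRing LocCoh

namespace Groth.Agent.Dual.H373.GorComp

open Groth.Agent.Flat2D.FiberStalk Groth.Agent.Flat2D.CMFlatArt Groth.Agent.Flat2D.CMConverse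

/-- `Dual3.IsGorensteinAt` in terms of `O_{X,x} / m_{f x} O_{X,x}`. -/
theorem isGorensteinAt_iff {X S : Scheme.{u}} (f : X ⟶ S) (x : X) :
    Dual3.IsGorensteinAt f x ↔ (f.stalkMap x).hom.Flat ∧
      IsGorensteinLocalRing (X.presheaf.stalk x ⧸ fibreIdeal f x) := by
  obtain ⟨e⟩ := nonempty_asFiber_stalkEquiv f x
  unfold Dual3.IsGorensteinAt
  rw [LoccohA.GorBC.isGorensteinLocalRing_iff_of_ringEquiv e]

section Alg

variable (R S : Type u) [CommRing R] [CommRing S] [Algebra R S] [IsLocalRing R] [IsLocalRing S]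
  [IsLocalHom (algebraMap R S)]

/-- For a flat local homomorphism `R → S` and an ideal `I` of `R`: `S/IS` is Gorenstein iff `R/I` and the closed
fibre are. -/
theorem isGorenstein_quot_iff [Module.Flat R S] {I : Ideal R} (hI : I ≤ maximalIdeal R)
    [IsNoetherianRing (R ⧸ I)] [IsNoetherianRing (S ⧸ I.map (algebraMap R S))] :
    IsGorensteinLocalRing (S ⧸ I.map (algebraMap R S)) ↔
      IsGorensteinLocalRing (R ⧸ I) ∧
        IsGorensteinLocalRing (S ⧸ (maximalIdeal R).map (algebraMap R S)) := by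
  have h1 := nontrivial_quot R hI
  have h2 := nontrivial_quot S (map_le R S hI)
  have h3 := isLocalHom_quot R S hI
  have h4 := flat_quot R S I
  have h5 : IsLocalRing (R ⧸ I) := .of_surjective' (Ideal.Quotient.mk _) Ideal.Quotient.mk_surjective
  have h7 : IsLocalRing (S ⧸ I.map (algebraMap R S)) :=
    .of_surjective' (Ideal.Quotient.mk _) Ideal.Quotient.mk_surjective
  rw [S0344.result (R ⧸ I) (S ⧸ I.map (algebraMap R S)),
    LoccohA.GorBC.isGorensteinLocalRing_iff_of_ringEquiv (fibQuotEquiv R S hI)]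

end Alg

/-- Local form of the behaviour of Gorenstein fibres under composition. -/
theorem isGorenstein_fibre_comp_iff {X P S : Scheme.{u}} (g : X ⟶ P) (p : P ⟶ S) (x : X)
    (hflat : (g.stalkMap x).hom.Flat)
    (hP : IsNoetherianRing (P.presheaf.stalk (g x) ⧸ fibreIdeal p (g x)))
    (hN : IsNoetherianRing (X.presheaf.stalk x ⧸ fibreIdeal (g ≫ p) x)) :
    IsGorensteinLocalRing (X.presheaf.stalk x ⧸ fibreIdeal (g ≫ p) x) ↔
      IsGorensteinLocalRing (P.presheaf.stalk (g x) ⧸ fibreIdeal p (g x)) ∧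
        IsGorensteinLocalRing (X.presheaf.stalk x ⧸ fibreIdeal g x) := by
  algebraize [(g.stalkMap x).hom]
  have hloc : IsLocalHom (algebraMap (P.presheaf.stalk (g x)) (X.presheaf.stalk x)) :=
    inferInstanceAs (IsLocalHom (g.stalkMap x).hom)
  rw [fibreIdeal_comp] at hN ⊢
  exact isGorenstein_quot_iff (P.presheaf.stalk (g x)) (X.presheaf.stalk x)
    (fibreIdeal_le p (g x))

/-- Composition of Gorenstein points, with flatness. -/
theorem isGorensteinAt_comp {X P S : Scheme.{u}} (g : X ⟶ P) (p : P ⟶ S) (x : X)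
    (hg : Dual3.IsGorensteinAt g x) (hp : Dual3.IsGorensteinAt p (g x))
    (hN : IsNoetherianRing (X.presheaf.stalk x ⧸ fibreIdeal (g ≫ p) x)) :
    Dual3.IsGorensteinAt (g ≫ p) x := by
  rw [isGorensteinAt_iff] at hg hp ⊢
  refine ⟨?_, (isGorenstein_fibre_comp_iff g p x hg.1 (have := hp.2; inferInstance) hN).mpr ⟨hp.2, hg.2⟩⟩
  rw [Scheme.Hom.stalkMap_comp]
  exact hp.1.comp hg.1

/-- Cancellation. -/
theorem isGorensteinAt_of_comp {X P S : Scheme.{u}} (g : X ⟶ P) (p : P ⟶ S) (x : X)
    (hflat : (g.stalkMap x).hom.Flat) (hgp : Dual3.IsGorensteinAt (g ≫ p) x)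
    (hP : IsNoetherianRing (P.presheaf.stalk (g x) ⧸ fibreIdeal p (g x))) :
    Dual3.IsGorensteinAt g x := by
  rw [isGorensteinAt_iff] at hgp ⊢
  have hN : IsNoetherianRing (X.presheaf.stalk x ⧸ fibreIdeal (g ≫ p) x) :=
    have := hgp.2
    inferInstance
  exact ⟨hflat, ((isGorenstein_fibre_comp_iff g p x hflat hP hN).mp hgp.2).2⟩

/-- Restriction to an open subscheme of the source. -/
theorem isGorensteinAt_comp_openImmersion {U X S : Scheme.{u}} (j : U ⟶ X) [IsOpenImmersion j]
    (f : X ⟶ S) (y : U) :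
    Dual3.IsGorensteinAt (j ≫ f) y ↔ Dual3.IsGorensteinAt f (j y) := by
  rw [isGorensteinAt_iff, isGorensteinAt_iff, fibreIdeal_comp]
  let e : X.presheaf.stalk (j y) ≃+* U.presheaf.stalk y :=
    (asIso (j.stalkMap y)).commRingCatIsoToRingEquiv
  have h2 : (fibreIdeal f (j y)).map (j.stalkMap y).hom = (fibreIdeal f (j y)).map (e : _ →+* _) := rfl
  rw [h2, LoccohA.GorBC.isGorensteinLocalRing_iff_of_ringEquiv
    (Ideal.quotientEquiv (fibreIdeal f (j y)) _ e rfl)]
  refine and_congr_left fun _ => ?_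
  rw [Scheme.Hom.stalkMap_comp]
  exact RingHom.Flat.respectsIso.cancel_right_isIso (f.stalkMap (j y)) (j.stalkMap y)

theorem isGor_stalk_of_iso {X Y : Scheme.{u}} (e : X ≅ Y)
    (h : ∀ y : Y, IsGorensteinLocalRing (Y.presheaf.stalk y))
    (x : X) : IsGorensteinLocalRing (X.presheaf.stalk x) :=
  LoccohA.GorBC.isGorensteinLocalRing_of_ringEquiv
    (asIso (e.hom.stalkMap x)).commRingCatIsoToRingEquiv (h (e.hom x))

/-- Local rings of affine space over a field are Gorenstein. -/
theorem isGor_stalk_affineSpace_field (n : Type u) [Finite n] (K : CommRingCat.{u}) (hK : IsField K)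
    (z : 𝔸(n; Spec K)) :
    IsGorensteinLocalRing (𝔸(n; Spec K).presheaf.stalk z) := by
  let _ : Field K := hK.toField
  refine isGor_stalk_of_iso (AffineSpace.SpecIso n K) (fun y => ?_) z
  have h1 : IsRegularRing (MvPolynomial (Fin (Nat.card n)) K) := inferInstance
  have h2 : IsRegularRing (MvPolynomial n K) :=
    IsRegularRing.of_ringEquiv (MvPolynomial.renameEquiv K (Finite.equivFin n)).symm.toRingEquiv
  have h3 : IsRegularLocalRing (Localization.AtPrime y.asIdeal) := inferInstance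
  exact LoccohA.GorBC.isGorensteinLocalRing_of_ringEquiv
    (Spec.stalkIso _ y).symm.commRingCatIsoToRingEquiv (S0342.result (Localization.AtPrime y.asIdeal))

/-- The local rings of the fibres of affine space are Gorenstein. -/
theorem isGor_affineSpace (n : Type u) [Finite n] (S : Scheme.{u}) (z : 𝔸(n; S)) :
    IsGorensteinLocalRing (𝔸(n; S).presheaf.stalk z ⧸ fibreIdeal (𝔸(n; S) ↘ S) z) := by
  obtain ⟨e⟩ := nonempty_asFiber_stalkEquiv (𝔸(n; S) ↘ S) z
  have key : IsGorensteinLocalRing (((𝔸(n; S) ↘ S).fiber ((𝔸(n; S) ↘ S) z)).presheaf.stalk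
      ((𝔸(n; S) ↘ S).asFiber z)) := by
    refine isGor_stalk_of_iso
      (AffineSpace.isPullback_map (n := n) (S.fromSpecResidueField ((𝔸(n; S) ↘ S) z))).isoPullback.symm
      (fun y => ?_) _
    exact isGor_stalk_affineSpace_field n _ (Field.toIsField _) y
  exact LoccohA.GorBC.isGorensteinLocalRing_of_ringEquiv e.symm key

end Groth.Agent.Dual.H373.GorComp
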